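import Cfsg.Agent.H640.RG.FmsSp
import Cfsg.Agent.H141.Rg.Act

/-!
# TEAM RG (S5714), C3: pairs with a given annihilator, symplectic groups
-/

set_option autoImplicit false

namespace Cfsg.Agent.H640.RG

open Cfsg Polynomial
open Cfsg.Agent.H127.Rg (shift recS mem_recS recS_bezout rec_iff eq_zero_of_init shift_recS mem_dual)

section Seq

variable {F : Type} [Field F]

/-- a sequence with recurrence `g` which vanishes at `deg g` consecutive places is zero -/
theorem eq_zero_of_window {g : F[X]} (hg : g ≠ 0) (h0 : g.coeff 0 ≠ 0) {c : ℤ → F} (hc : c ∈ recS g) (a : ℤ)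
    (hi : ∀ i : ℕ, i < g.natDegree → c (a + i) = 0) : c = 0 := by
  have h1 : (fun m => c (a + m)) = 0 := by
    refine eq_zero_of_init hg h0 ?_ hi
    refine (rec_iff g _).1 fun m => ?_
    have h2 := (rec_iff g c).2 (mem_recS.1 hc) (a + m)
    simpa only [add_assoc] using h2
  funext m
  have h2 := congrFun h1 (m - a)
  simpa using h2

theorem str_id_eq (g : F[X]) (h0 : g.coeff 0 ≠ 0) :
    H141.Rg.str (RingHom.id F) g = C (g.coeff 0) * H178.RG.dualP 1 g := by
  unfold H141.Rg.str H178.RG.dualP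
  rw [Polynomial.map_id, ← mul_assoc, ← C_mul, pow_one, mul_inv_cancel₀ h0, C_1, one_mul]
  ext i
  rw [coeff_reverse, Polynomial.sum_def, finsetSum_coeff]
  simp only [pow_one, coeff_C_mul, coeff_X_pow]
  by_cases hi : i ≤ g.natDegree
  · rw [revAt_le hi]
    by_cases hz : g.coeff (g.natDegree - i) = 0
    · rw [hz]
      symm
      refine Finset.sum_eq_zero fun j hj => ?_
      have hj' := le_natDegree_of_mem_supp j hj
      by_cases hij : i = g.natDegree - j
      · exfalso
        rw [hij, Nat.sub_sub_self hj'] at hz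
        exact (mem_support_iff.1 hj) hz
      · rw [if_neg hij, mul_zero]
    · rw [Finset.sum_eq_single (g.natDegree - i)]
      · rw [Nat.sub_sub_self hi, if_pos rfl, mul_one]
      · intro j hj hne
        have hj' := le_natDegree_of_mem_supp j hj
        rw [if_neg, mul_zero]
        omega
      · intro h
        exact absurd (mem_support_iff.2 hz) h
  · rw [not_le] at hi
    rw [revAt_eq_self_of_lt hi, coeff_eq_zero_of_natDegree_lt hi]
    symm
    refine Finset.sum_eq_zero fun j _ => ?_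
    rw [if_neg, mul_zero]
    omega

end Seq

section Count

variable {F : Type} [Field F] [Fintype F]

/-- the number of antisymmetric sequences with recurrence `g` vanishing at zero -/
theorem card_alt {g : F[X]} (hg : g.Monic) (h0 : g.coeff 0 ≠ 0) :
    {c | c ∈ H178.RG.SymSeq 1 (-1 : F) g ∧ c 0 = 0}.Finite ∧
      (({c | c ∈ H178.RG.SymSeq 1 (-1 : F) g ∧ c 0 = 0}.ncard : ℕ) : ℝ) ≤
        √((Nat.card F : ℝ) ^ H141.Rg.ed (RingHom.id F) g) := by
  classical
  set T : Set (ℤ → F) := {c | c ∈ H178.RG.SymSeq 1 (-1 : F) g ∧ c 0 = 0} with hT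
  have hne : (-1 : F) ≠ 0 := neg_ne_zero.2 one_ne_zero
  set d := EuclideanDomain.gcd g (H141.Rg.str (RingHom.id F) g) with hd
  have hed : H141.Rg.ed (RingHom.id F) g = d.natDegree := by
    rw [hd]
    unfold H141.Rg.ed
    congr!
  have hdg : d ∣ g := EuclideanDomain.gcd_dvd_left _ _
  have hd0 : d ≠ 0 := fun h => hg.ne_zero (by rw [h] at hdg; exact zero_dvd_iff.1 hdg)
  have hdc : d.coeff 0 ≠ 0 := by
    intro h
    apply h0
    obtain ⟨k, hk⟩ := hdg
    rw [hk, mul_coeff_zero, h, zero_mul]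
  have hmem : ∀ c ∈ T, c ∈ recS d := by
    intro c hc
    have h1 : c ∈ recS (H141.Rg.str (RingHom.id F) g) := by
      rw [str_id_eq g h0]
      exact H127.Rg.recS_mono (dvd_mul_left _ _) (mem_dual (Or.inr rfl) hne hc.1)
    refine recS_bezout ⟨EuclideanDomain.gcdA g (H141.Rg.str (RingHom.id F) g),
      EuclideanDomain.gcdB g (H141.Rg.str (RingHom.id F) g), ?_⟩ (mem_recS.2 ((rec_iff g c).1 hc.1.1)) h1
    rw [hd, EuclideanDomain.gcd_eq_gcd_ab, mul_comm g, mul_comm (H141.Rg.str (RingHom.id F) g)]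
  set h := d.natDegree / 2 with hh
  have hinj : Function.Injective (fun (c : T) (i : Fin h) => c.1 ((i : ℕ) + 1 : ℤ)) := by
    rintro ⟨a, ha⟩ ⟨b, hb⟩ hab
    apply Subtype.ext
    rw [← sub_eq_zero]
    have hr : a - b ∈ recS d := sub_mem (hmem a ha) (hmem b hb)
    have hpos : ∀ i : ℕ, i ≤ h → (a - b) (i : ℤ) = 0 := by
      intro i hi
      rcases Nat.eq_zero_or_pos i with rfl | hi0
      · simp [ha.2, hb.2]
      · have h1 := congrFun hab ⟨i - 1, by omega⟩
        have h2 : (((i - 1 : ℕ) : ℤ) + 1) = i := by omega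
        simp only [h2] at h1
        rw [Pi.sub_apply, sub_eq_zero]
        exact h1
    have hall : ∀ i : ℤ, -(h : ℤ) ≤ i → i ≤ h → (a - b) i = 0 := by
      intro i hi1 hi2
      rcases le_or_gt 0 i with hi | hi
      · lift i to ℕ using hi
        exact hpos i (by omega)
      · have h1 : i = -((i.natAbs : ℕ) : ℤ) := by omega
        have h2 := hpos i.natAbs (by omega)
        rw [Pi.sub_apply, sub_eq_zero] at h2
        rw [h1, Pi.sub_apply, ha.1.2, hb.1.2, h2, sub_self]
    refine eq_zero_of_window hd0 hdc hr (-(h : ℤ)) fun i hi => hall _ (by omega) (by omega)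
  have hfin : Finite T := Finite.of_injective _ hinj
  refine ⟨hfin, ?_⟩
  have h1 := Nat.card_le_card_of_injective _ hinj
  rw [Nat.card_fun, Nat.card_eq_fintype_card (α := Fin h), Fintype.card_fin, Nat.card_coe_set_eq] at h1
  rw [hed]
  refine Real.le_sqrt_of_sq_le ?_
  have h2 : T.ncard ^ 2 ≤ Nat.card F ^ d.natDegree := by
    calc T.ncard ^ 2 ≤ (Nat.card F ^ h) ^ 2 := Nat.pow_le_pow_left h1 2
      _ = Nat.card F ^ (h * 2) := by rw [← pow_mul]
      _ ≤ Nat.card F ^ d.natDegree := Nat.pow_le_pow_right Nat.card_pos (by omega)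
  exact_mod_cast h2

end Count

theorem ann_iff {ι : Type} [Fintype ι] [DecidableEq ι] {F : Type} [Field F] (y : Matrix ι ι F) (v : ι → F) (g : F[X]) :
    H141.Rg.Ann (Matrix.toLin' y) v g ↔ H178.RG.Ann y v g := by
  unfold H141.Rg.Ann H178.RG.Ann
  refine forall_congr' fun f => ?_
  have h1 : aeval (Matrix.toLin' y) f = Matrix.toLin' (aeval y f) := by
    have := Polynomial.aeval_algHom_apply (Matrix.toLinAlgEquiv' (R := F) (n := ι)).toAlgHom y f
    exact this
  rw [h1, Matrix.toLin'_apply]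

/-- **C3** -/
theorem el_sp (m : ℕ) (F : Type) [Field F] [Finite F] :
    H141.Rg.EL (RingHom.id F) (H141.Rg.spAct m F) 1 (fun _ => 1) := by
  intro g hg h0 _
  have := Fintype.ofFinite F
  rw [one_mul]
  rcases Nat.eq_zero_or_pos m with rfl | hm
  · -- the trivial space
    have h1 : (Nat.card {p : Matrix.symplecticGroup (Fin 0) F × (Fin 0 ⊕ Fin 0 → F) //
        H141.Rg.Ann (H141.Rg.spAct 0 F p.1) p.2 g} : ℝ) ≤ Nat.card (Matrix.symplecticGroup (Fin 0) F) := by
      have h2 := Nat.card_le_card_of_injective (fun p : {p : Matrix.symplecticGroup (Fin 0) F × (Fin 0 ⊕ Fin 0 → F) //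
        H141.Rg.Ann (H141.Rg.spAct 0 F p.1) p.2 g} => p.1.1) (by
          rintro ⟨⟨a, v⟩, ha⟩ ⟨⟨b, w⟩, hb⟩ hab
          have h3 : v = w := Subsingleton.elim _ _
          simp only at hab
          subst hab h3
          rfl)
      exact_mod_cast h2
    refine h1.trans (le_mul_of_one_le_left (Nat.cast_nonneg _) ?_)
    rw [Real.one_le_sqrt]
    refine one_le_pow₀ ?_
    exact_mod_cast Nat.card_pos
  · obtain ⟨hfin, hcard⟩ := card_alt hg h0
    have h1 : H178.RG.FM (rhoSp m F) g √((Nat.card F : ℝ) ^ H141.Rg.ed (RingHom.id F) g) :=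
      fm_of_symSeq m hm hfin (fun c hc h => ⟨hc, h⟩) hcard
    unfold H178.RG.FM at h1
    refine le_trans (le_of_eq ?_) h1
    congr 1
    refine Nat.card_congr (Equiv.subtypeEquivRight fun p => ?_)
    exact ann_iff _ _ _

end Cfsg.Agent.H640.RG
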