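import Cfsg.Agent.H680.RG.FmCore
import Cfsg.Agent.H689.RG.Dual
import Cfsg.Agent.H127.Rg.SymSeq
import Cfsg.Agent.H388.RG.SymSeq
import Cfsg.Agent.H513.RG.WittSp

/-!
# TEAM RG (S5714): first moment bounds for the symplectic groups

`fms_sp`: the number of pairs `(x, v)`, `x ∈ Sp_{2m}(F)`, with annihilator `f`.
-/

set_option autoImplicit false

namespace Cfsg.Agent.H640.RG

open Cfsg Cfsg.Agent.H178.RG Polynomial
open Cfsg.Agent.ClassicalGeometry.SympBasic

set_option linter.unusedSectionVars false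

variable {F : Type} [Field F] [Fintype F]

/-- the natural representation of the symplectic group -/
noncomputable abbrev rhoSp (m : ℕ) (F : Type) [Field F] :
    Matrix.symplecticGroup (Fin m) F →* Matrix (Fin m ⊕ Fin m) (Fin m ⊕ Fin m) F :=
  (Units.coeHom (Matrix (Fin m ⊕ Fin m) (Fin m ⊕ Fin m) F)).comp (Cfsg.Agent.H876.spToGL m F)

theorem rhoSp_apply (m : ℕ) (x : Matrix.symplecticGroup (Fin m) F) : rhoSp m F x = (x : Matrix _ _ F) := rfl

theorem isForm_symp (m : ℕ) : IsForm 1 (-1 : F) (sympForm m F) where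
  hs := Or.inl rfl
  add_left := sympForm_add_left
  smul_left := sympForm_smul_left
  symm := fun v w => by
    rw [sympForm_swap, pow_one]
    ring
  nondeg := fun v h => by
    refine eq_zero_of_forall_sympForm_left fun w => ?_
    first
      | exact h w
      | (rw [sympForm_swap, h w, neg_zero])

theorem rhoSp_inv (m : ℕ) (g : Matrix.symplecticGroup (Fin m) F) (v w : Fin m ⊕ Fin m → F) :
    sympForm m F ((rhoSp m F g).mulVec v) ((rhoSp m F g).mulVec w) = sympForm m F v w :=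
  sympForm_mulVec g.2 v w

/-- `FM` is monotone in the bound -/
theorem fm_mono {ι : Type} [Fintype ι] [DecidableEq ι] {G : Type} [Group G] {ρ : G →* Matrix ι ι F} {f : F[X]}
    {c d : ℝ} (h : FM ρ f c) (hcd : c ≤ d) : FM ρ f d :=
  h.trans (mul_le_mul_of_nonneg_right hcd (Nat.cast_nonneg _))

/-- the Gram data of a symplectic pair are `(c, 0)` with `c` a symmetric sequence -/
theorem fm_of_symSeq (m : ℕ) (hm : 1 ≤ m) {f : F[X]} {T : Set (ℤ → F)} (hT : T.Finite)
    (h : ∀ c ∈ SymSeq 1 (-1 : F) f, c 0 = 0 → c ∈ T) {b : ℝ} (hb : (T.ncard : ℝ) ≤ b) :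
    FM (rhoSp m F) f b := by
  classical
  have h1 : FM (rhoSp m F) f (((T ×ˢ ({0} : Set F)).ncard : ℕ) : ℝ) := by
    refine fm_form (rhoSp m F) (Cfsg.Agent.H513.RG.witt_sp m hm) f _ (hT.prod (Set.finite_singleton _)) ?_
    intro x v hxv
    refine ⟨h _ (Cfsg.Agent.H689.RG.symSeq_of (rhoSp m F) (isForm_symp m) (rhoSp_inv m) hxv) ?_, rfl⟩
    show sympForm m F ((rhoSp m F (x ^ (0 : ℤ))).mulVec v) v = 0
    rw [zpow_zero, map_one, Matrix.one_mulVec, sympForm_self]
  refine fm_mono h1 (le_trans (le_of_eq ?_) hb)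
  rw [Set.ncard_prod, Set.ncard_singleton, mul_one]

theorem one_le_sqrt_card : (1 : ℝ) ≤ √(Fintype.card F : ℝ) := by
  rw [Real.one_le_sqrt]
  exact_mod_cast Fintype.card_pos

theorem fms_sp (m : ℕ) (hm : 1 ≤ m) :
    FMS 1 ((Units.coeHom (Matrix (Fin m ⊕ Fin m) (Fin m ⊕ Fin m) F)).comp (Cfsg.Agent.H876.spToGL m F)) ∧
    ∀ ζ : F, ζ ^ 2 = 1 → FM ((Units.coeHom (Matrix (Fin m ⊕ Fin m) (Fin m ⊕ Fin m) F)).comp
      (Cfsg.Agent.H876.spToGL m F)) (X - C ζ) 1 := by
  have hne : (-1 : F) ≠ 0 := neg_ne_zero.2 one_ne_zero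
  refine ⟨⟨Or.inl le_rfl, ?_, ?_, ?_⟩, ?_⟩
  · intro f hf h0 hco e he
    obtain ⟨hfin, hcard⟩ := Cfsg.Agent.H127.Rg.card_symSeq (s := 1) hne hf h0 (he one_ne_zero) (Or.inr ⟨rfl, hco rfl⟩)
    exact fm_of_symSeq m hm hfin (fun c hc _ => hc) hcard
  · intro _ f hf h0
    obtain ⟨hfin, hcard⟩ := Cfsg.Agent.H388.RG.card_symSeq' hne hf h0
    refine fm_of_symSeq m hm hfin (fun c hc _ => hc) (hcard.trans ?_)
    exact pow_le_pow_right₀ one_le_sqrt_card (by omega)
  · intro _ x
    exact Cfsg.Agent.H689.RG.dual_charpoly (rhoSp m F) (isForm_symp m) (rhoSp_inv m) x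
  · intro ζ hζ
    refine fm_of_symSeq m hm (T := {0}) (Set.finite_singleton _) ?_ (by simp)
    intro c hc h0
    have hζ0 : ζ ≠ 0 := by
      rintro rfl
      simp at hζ
    have hrec : ∀ k : ℤ, c (k + 1) = ζ * c k := by
      intro k
      have h1 := hc.1 k
      have h2 : (X - C ζ : F[X]).sum (fun i a => a * c (k + i)) = c (k + 1) - ζ * c k := by
        rw [sub_eq_add_neg, ← C_neg, Polynomial.sum_add_index _ _ _ (by simp) (by intros; ring),
          Polynomial.sum_X_index (by simp), Polynomial.sum_C_index (by simp)]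
        push_cast
        rw [add_zero, one_mul]
        ring
      rw [h2] at h1
      exact sub_eq_zero.1 h1
    refine Set.mem_singleton_iff.2 (funext fun k => ?_)
    induction k using Int.induction_on with
    | zero => exact h0
    | succ i ih => rw [hrec, ih]; simp
    | pred i ih =>
      have h1 := hrec (-(i : ℤ) - 1)
      rw [sub_add_cancel, ih] at h1
      have h2 : ζ * c (-(i : ℤ) - 1) = 0 := by rw [← h1]; rfl
      exact (mul_eq_zero.1 h2).resolve_left hζ0

end Cfsg.Agent.H640.RG
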